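import Cfsg.Agent.CharBasics.CyclicTI
import Cfsg.Agent.BrauerInd.Galois

/-!
Twisting a cyclic TI family by powers prime to the group order.
-/

set_option autoImplicit false

namespace CfsgLib.CyclicTI

open CfsgLib.CharBasics
open scoped ComplexConjugate

universe u

variable {G : Type u} [Group G] [Fintype G] {W₁ W₂ : Subgroup G}

/-- Irreducible up to sign. -/
def IrrOrNeg (f : G → ℂ) : Prop :=
  Cfsg.IsIrrCharacter G f ∨ Cfsg.IsIrrCharacter G (-f)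

theorem classInner_neg_left (f g : G → ℂ) :
    Cfsg.classInner (-f) g = -Cfsg.classInner f g := by
  simp [classInner_eq]

theorem classInner_neg_right (f g : G → ℂ) :
    Cfsg.classInner f (-g) = -Cfsg.classInner f g := by
  simp [classInner_eq]

theorem irr_eq_of_inner_ne_zero {f g : G → ℂ} (hf : Cfsg.IsIrrCharacter G f)
    (hg : Cfsg.IsIrrCharacter G g) (h : Cfsg.classInner f g ≠ 0) : f = g := by
  classical
  by_contra hne
  apply h
  have := classInner_irr ⟨f, hf⟩ ⟨g, hg⟩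
  rw [if_neg (fun e => hne (congrArg Subtype.val e))] at this
  exact this

theorem irrOrNeg_eq_or_neg {f g : G → ℂ} (hf : IrrOrNeg f) (hg : IrrOrNeg g)
    (h : Cfsg.classInner f g ≠ 0) : f = g ∨ f = -g := by
  rcases hf with hf | hf <;> rcases hg with hg | hg
  · exact Or.inl (irr_eq_of_inner_ne_zero hf hg h)
  · exact Or.inr (irr_eq_of_inner_ne_zero hf hg
      (by rw [classInner_neg_right]; exact neg_ne_zero.mpr h))
  · have := irr_eq_of_inner_ne_zero hf hg (by rw [classInner_neg_left]; exact neg_ne_zero.mpr h)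
    exact Or.inr (by rw [← this, neg_neg])
  · have := irr_eq_of_inner_ne_zero hf hg
      (by rw [classInner_neg_left, classInner_neg_right, neg_neg]; exact h)
    exact Or.inl (neg_inj.mp this)

theorem irrOrNeg_inner_self {f : G → ℂ} (hf : IrrOrNeg f) : Cfsg.classInner f f = 1 := by
  rcases hf with h | h
  · exact classInner_self h
  · have := classInner_self h
    rwa [classInner_neg_left, classInner_neg_right, neg_neg] at this

theorem irrOrNeg_eq_of_inner_eq_one {f g : G → ℂ} (hf : IrrOrNeg f) (hg : IrrOrNeg g)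
    (h : Cfsg.classInner f g = 1) : f = g := by
  rcases irrOrNeg_eq_or_neg hf hg (h ▸ one_ne_zero) with e | e
  · exact e
  · exfalso
    rw [e, classInner_neg_left, irrOrNeg_inner_self hg] at h
    norm_num at h

theorem inner_pow {k : ℕ} (hk : k.Coprime (Nat.card G)) (f g : G → ℂ) :
    Cfsg.classInner (fun x => f (x ^ k)) (fun x => g (x ^ k)) = Cfsg.classInner f g := by
  rw [classInner_eq, classInner_eq]
  congr 1
  exact Fintype.sum_equiv (powCoprime ((Nat.coprime_comm).1 hk)) _ _ fun x => rfl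

theorem indFun_alpha_pow {k : ℕ} (hk : k.Coprime (Nat.card G))
    (φ ψ : ↥(W₁ ⊔ W₂) →* ℂˣ) (g : G) :
    Cfsg.indFun (W₁ ⊔ W₂) (alpha φ ψ) (g ^ k) =
      Cfsg.indFun (W₁ ⊔ W₂) (alpha (φ ^ k) (ψ ^ k)) g := by
  simp only [Cfsg.indFun]
  congr 1
  refine Finset.sum_congr rfl fun x _ => ?_
  have hc : x⁻¹ * g ^ k * x = (x⁻¹ * g * x) ^ k := by
    have := map_pow (MulAut.conj x⁻¹) g k
    simpa using this
  rw [hc]
  by_cases hm : x⁻¹ * g * x ∈ W₁ ⊔ W₂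
  · rw [CfsgLib.IndFun.extendByZero_mem _ hm,
      CfsgLib.IndFun.extendByZero_mem _ ((W₁ ⊔ W₂).pow_mem hm k)]
    simp only [alpha, MonoidHom.pow_apply, Units.val_pow_eq_pow_val]
    rw [← Units.val_pow_eq_pow_val, ← Units.val_pow_eq_pow_val, ← map_pow, ← map_pow]
    rfl
  · rw [CfsgLib.IndFun.extendByZero_not_mem _ hm, CfsgLib.IndFun.extendByZero_not_mem _
      (fun h => hm ((BrauerInd.mem_pow_iff hk _ _).1 h))]

section HomAlg

variable {W : Type*} [Group W]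

theorem hom_one_mul (f : W →* ℂˣ) : 1 * f = f := MonoidHom.ext fun w => by simp

theorem hom_mul_one (f : W →* ℂˣ) : f * 1 = f := MonoidHom.ext fun w => by simp

theorem hom_mul_comm (f g : W →* ℂˣ) : f * g = g * f := MonoidHom.ext fun w => by
  simp [mul_comm]

theorem hom_mul_assoc (f g h : W →* ℂˣ) : f * g * h = f * (g * h) := MonoidHom.ext fun w => by
  simp [mul_assoc]

theorem hom_mul_pow (f g : W →* ℂˣ) (n : ℕ) : (f * g) ^ n = f ^ n * g ^ n :=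
  MonoidHom.ext fun w => by simp [mul_pow]

theorem hom_one_pow (n : ℕ) : (1 : W →* ℂˣ) ^ n = 1 := MonoidHom.ext fun w => by simp

theorem hom_pow_zero (f : W →* ℂˣ) : f ^ 0 = 1 := MonoidHom.ext fun w => by simp

theorem hom_sq_pow (f : W →* ℂˣ) (n : ℕ) : (f ^ 2) ^ n = f ^ n * f ^ n :=
  MonoidHom.ext fun w => by simp [← pow_add, ← pow_mul, two_mul]

theorem hom_mul_right_cancel {f g h : W →* ℂˣ} (e : f * h = g * h) : f = g :=
  MonoidHom.ext fun w => mul_right_cancel (b := h w) (by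
    simpa using DFunLike.congr_fun e w)

theorem hom_mul_left_cancel {f g h : W →* ℂˣ} (e : h * f = h * g) : f = g :=
  MonoidHom.ext fun w => mul_left_cancel (a := h w) (by
    simpa using DFunLike.congr_fun e w)

theorem hom_mul_inv [Finite W] (f : W →* ℂˣ) : f * f ^ (Nat.card W - 1) = 1 :=
  MonoidHom.ext fun w => by
    rw [MonoidHom.mul_apply, MonoidHom.pow_apply, ← pow_succ', Nat.sub_add_cancel Nat.card_pos,
      ← map_pow, pow_card_eq_one', map_one, MonoidHom.one_apply]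

end HomAlg

theorem hom_pow_eq_one {W : Type*} [Group W] [Finite W] {k : ℕ} (hk : k.Coprime (Nat.card W))
    {φ : W →* ℂˣ} (h : φ ^ k = 1) : φ = 1 := by
  refine MonoidHom.ext fun w => ?_
  have h1 : φ w ^ k = 1 := by rw [← MonoidHom.pow_apply, h, MonoidHom.one_apply]
  have h2 : φ w ^ Nat.card W = 1 := by rw [← map_pow, pow_card_eq_one', map_one]
  have h3 : φ w ^ Nat.gcd k (Nat.card W) = 1 := pow_gcd_eq_one.mpr ⟨h1, h2⟩
  rw [hk.gcd_eq_one, pow_one] at h3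
  rw [h3, MonoidHom.one_apply]

theorem two_coprime {W : Type*} (hodd : Odd (Nat.card W)) : Nat.Coprime 2 (Nat.card W) :=
  Nat.coprime_two_left.mpr hodd

theorem mul_eq_one_of_trivOn (hW : Cfsg.IsSelfNormalizingCyclic W₁ W₂)
    {φ ψ : ↥(W₁ ⊔ W₂) →* ℂˣ} (hφ : ∀ w : ↥(W₁ ⊔ W₂), (w : G) ∈ W₂ → φ w = 1)
    (hψ : ∀ w : ↥(W₁ ⊔ W₂), (w : G) ∈ W₁ → ψ w = 1) (h : φ * ψ = 1) : φ = 1 := by
  have := hW.2.2.2.2.1
  letI : CommGroup ↥(W₁ ⊔ W₂) := IsCyclic.commGroup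
  have hs : W₁.subgroupOf (W₁ ⊔ W₂) ⊔ W₂.subgroupOf (W₁ ⊔ W₂) = ⊤ := by
    rw [← Subgroup.subgroupOf_sup le_sup_left le_sup_right, Subgroup.subgroupOf_self]
  refine MonoidHom.ext fun w => ?_
  obtain ⟨a, ha, b, hb, rfl⟩ := Subgroup.mem_sup.1 (hs ▸ Subgroup.mem_top w)
  have h1 := DFunLike.congr_fun h a
  rw [MonoidHom.mul_apply, hψ a ha, mul_one, MonoidHom.one_apply] at h1
  rw [map_mul, h1, hφ b hb, mul_one, MonoidHom.one_apply]

variable {χ : (↥(W₁ ⊔ W₂) →* ℂˣ) → (G → ℂ)}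

theorem twist_irrOrNeg (hχ : Cfsg.IsCyclicTIFamily W₁ W₂ χ) {k : ℕ}
    (hk : k.Coprime (Nat.card G)) (ω : ↥(W₁ ⊔ W₂) →* ℂˣ) :
    IrrOrNeg (fun g => χ ω (g ^ k)) := by
  rcases hχ.irr_or_neg ω with h | h
  · exact Or.inl (BrauerInd.isIrr_pow hk h)
  · exact Or.inr (BrauerInd.isIrr_pow hk h)

theorem inner_expand_left (f : G → ℂ) (a b c : G → ℂ) :
    Cfsg.classInner (fun g => 1 - a g - b g + c g) f = Cfsg.classInner (fun _ => 1) f -
      Cfsg.classInner a f - Cfsg.classInner b f + Cfsg.classInner c f := by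
  simp only [classInner_eq, add_mul, sub_mul, Finset.sum_add_distrib, Finset.sum_sub_distrib,
    mul_add, mul_sub]

theorem twist_family (hχ : Cfsg.IsCyclicTIFamily W₁ W₂ χ) {k : ℕ}
    (hk : k.Coprime (Nat.card G)) {φ ψ : ↥(W₁ ⊔ W₂) →* ℂˣ}
    (hφ : ∀ w : ↥(W₁ ⊔ W₂), (w : G) ∈ W₂ → φ w = 1)
    (hψ : ∀ w : ↥(W₁ ⊔ W₂), (w : G) ∈ W₁ → ψ w = 1) (h1 : φ ≠ 1) (h2 : ψ ≠ 1) (g : G) :
    1 - χ φ (g ^ k) - χ ψ (g ^ k) + χ (φ * ψ) (g ^ k) =
      1 - χ (φ ^ k) g - χ (ψ ^ k) g + χ (φ ^ k * ψ ^ k) g := by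
  have hkW : k.Coprime (Nat.card ↥(W₁ ⊔ W₂)) :=
    hk.coprime_dvd_right (Subgroup.card_subgroup_dvd_card _)
  have e1 := congrFun (hχ.induced_eq φ ψ h1 h2 hφ hψ) (g ^ k)
  have e2 := congrFun (hχ.induced_eq (φ ^ k) (ψ ^ k) (fun h => h1 (hom_pow_eq_one hkW h))
    (fun h => h2 (hom_pow_eq_one hkW h))
    (fun w hw => by rw [MonoidHom.pow_apply, hφ w hw, one_pow])
    (fun w hw => by rw [MonoidHom.pow_apply, hψ w hw, one_pow])) g
  change Cfsg.indFun (W₁ ⊔ W₂) (alpha φ ψ) (g ^ k) = _ at e1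
  change Cfsg.indFun (W₁ ⊔ W₂) (alpha (φ ^ k) (ψ ^ k)) g = _ at e2
  rw [indFun_alpha_pow hk, e2] at e1
  exact e1.symm

theorem twist_single (hW : Cfsg.IsSelfNormalizingCyclic W₁ W₂)
    (hodd : Odd (Nat.card ↥(W₁ ⊔ W₂))) (hχ : Cfsg.IsCyclicTIFamily W₁ W₂ χ) {k : ℕ}
    (hk : k.Coprime (Nat.card G)) {φ : ↥(W₁ ⊔ W₂) →* ℂˣ}
    (P : (↥(W₁ ⊔ W₂) →* ℂˣ) → Prop) (Q : (↥(W₁ ⊔ W₂) →* ℂˣ) → Prop)
    (hfam : ∀ ψ, Q ψ → ψ ≠ 1 → ∀ g : G,
      1 - χ φ (g ^ k) - χ ψ (g ^ k) + χ (φ * ψ) (g ^ k) =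
        1 - χ (φ ^ k) g - χ (ψ ^ k) g + χ (φ ^ k * ψ ^ k) g)
    (hdis : ∀ a b, P a → Q b → a * b = 1 → a = 1)
    (hP : P φ) (hPpow : ∀ a (n : ℕ), P a → P (a ^ n)) (hQpow : ∀ a (n : ℕ), Q a → Q (a ^ n))
    {ψ : ↥(W₁ ⊔ W₂) →* ℂˣ} (hQ : Q ψ) (h1 : φ ≠ 1) (h2 : ψ ≠ 1) :
    (fun g => χ φ (g ^ k)) = χ (φ ^ k) := by
  classical
  have hkW : k.Coprime (Nat.card ↥(W₁ ⊔ W₂)) :=
    hk.coprime_dvd_right (Subgroup.card_subgroup_dvd_card _)
  set T : G → ℂ := fun g => χ φ (g ^ k) with hT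
  have hTi : IrrOrNeg T := twist_irrOrNeg hχ hk φ
  have hTinner : ∀ ω, Cfsg.classInner (fun g => χ ω (g ^ k)) T = if ω = φ then 1 else 0 :=
    fun ω => by convert (inner_pow hk (χ ω) (χ φ)).trans (hχ.orthonormal ω φ)
  have hone : Cfsg.classInner (fun _ => (1 : ℂ)) T = 0 := by
    have := hTinner 1
    rw [hχ.map_one, if_neg (Ne.symm h1)] at this
    exact this
  have key : ∀ ψ, Q ψ → ψ ≠ 1 → Cfsg.classInner (χ (φ ^ k)) T +
      Cfsg.classInner (χ (ψ ^ k)) T - Cfsg.classInner (χ (φ ^ k * ψ ^ k)) T = 1 := by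
    intro ψ hQ h2
    have h := congrArg (fun f => Cfsg.classInner f T) (funext (hfam ψ hQ h2))
    simp only [inner_expand_left, hone, hTinner, if_pos] at h
    have hne1 : ψ ≠ φ := fun e => h1 (by
      have h3 := hdis (φ ^ (Nat.card ↥(W₁ ⊔ W₂) - 1)) ψ (hPpow φ _ hP) hQ (by
        rw [e, hom_mul_comm]; exact hom_mul_inv φ)
      refine hom_pow_eq_one (W := ↥(W₁ ⊔ W₂)) ?_ h3
      have hpos : 0 < Nat.card ↥(W₁ ⊔ W₂) := Nat.card_pos
      exact (Nat.coprime_self_sub_left (by omega : 1 ≤ _)).mpr (Nat.coprime_one_left _))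
    have hne2 : φ * ψ ≠ φ := fun e => h2 (hom_mul_left_cancel (e.trans (hom_mul_one φ).symm))
    rw [if_neg hne1, if_neg hne2] at h
    linear_combination h
  have hone' : ∀ ω ω', Cfsg.classInner (χ ω) T ≠ 0 → Cfsg.classInner (χ ω') T ≠ 0 → ω = ω' := by
    intro ω ω' ha hb
    by_contra hne
    have horth := hχ.orthonormal ω ω'
    rw [if_neg hne] at horth
    rcases irrOrNeg_eq_or_neg (hχ.irr_or_neg ω') hTi hb with e | e
    · exact ha (by rw [← e]; exact horth)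
    · apply ha
      rw [show T = -χ ω' from by rw [e, neg_neg], classInner_neg_right, horth, neg_zero]
  have hmain : Cfsg.classInner (χ (φ ^ k)) T ≠ 0 := by
    intro h0
    have hex : ∀ ψ, Q ψ → ψ ≠ 1 → ∃ ω, Cfsg.classInner (χ ω) T ≠ 0 ∧
        ∃ a, P a ∧ (a = 1 ∨ a = φ ^ k) ∧ ω = a * ψ ^ k := by
      intro ψ hQ h2
      by_cases h3 : Cfsg.classInner (χ (ψ ^ k)) T = 0
      · refine ⟨φ ^ k * ψ ^ k, fun h4 => ?_, φ ^ k, hPpow φ k hP, Or.inr rfl, rfl⟩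
        have := key ψ hQ h2
        rw [h0, h3, h4] at this
        norm_num at this
      · exact ⟨ψ ^ k, h3, 1, hom_pow_zero φ ▸ hPpow φ 0 hP, Or.inl rfl, (hom_one_mul _).symm⟩
    have h22 : ψ ^ 2 ≠ 1 := fun h => h2 (hom_pow_eq_one (two_coprime hodd) h)
    obtain ⟨ω, hω, a, ha, ha', rfl⟩ := hex ψ hQ h2
    obtain ⟨ω', hω', b, hb, hb', rfl⟩ := hex (ψ ^ 2) (hQpow ψ 2 hQ) h22
    have heq := hone' _ _ hω hω'
    have := hW.2.2.2.2.1
    letI : CommGroup ↥(W₁ ⊔ W₂) := IsCyclic.commGroup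
    rw [hom_sq_pow, ← hom_mul_assoc] at heq
    have h5 : a = b * ψ ^ k := hom_mul_right_cancel heq
    rcases ha' with rfl | rfl <;> rcases hb' with rfl | rfl
    · rw [hom_one_mul] at h5
      exact h2 (hom_pow_eq_one hkW h5.symm)
    · exact h1 (hom_pow_eq_one hkW (hdis _ _ hb (hQpow ψ k hQ) h5.symm))
    · rw [hom_one_mul] at h5
      have h6 : φ ^ k * (ψ ^ k) ^ (Nat.card ↥(W₁ ⊔ W₂) - 1) = 1 := by
        rw [h5]; exact hom_mul_inv _
      exact h1 (hom_pow_eq_one hkW (hdis _ _ (hPpow φ k hP) (hQpow _ _ (hQpow ψ k hQ)) h6))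
    · exact h2 (hom_pow_eq_one hkW (hom_mul_left_cancel (h5.symm.trans (hom_mul_one _).symm)))
  have h := key ψ hQ h2
  have hb : Cfsg.classInner (χ (ψ ^ k)) T = 0 := by
    by_contra hb
    have := hone' _ _ hmain hb
    refine h1 (hom_pow_eq_one hkW (hdis _ ((ψ ^ k) ^ (Nat.card ↥(W₁ ⊔ W₂) - 1)) (hPpow φ k hP)
      (hQpow _ _ (hQpow ψ k hQ)) ?_))
    rw [this]; exact hom_mul_inv _
  have hc : Cfsg.classInner (χ (φ ^ k * ψ ^ k)) T = 0 := by
    by_contra hc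
    exact h2 (hom_pow_eq_one hkW (hom_mul_left_cancel ((hone' _ _ hc hmain).trans (hom_mul_one _).symm)))
  rw [hb, hc, add_zero, sub_zero] at h
  exact (irrOrNeg_eq_of_inner_eq_one (hχ.irr_or_neg _) hTi h).symm

theorem twist_eq (hW : Cfsg.IsSelfNormalizingCyclic W₁ W₂) (hodd : Odd (Nat.card ↥(W₁ ⊔ W₂)))
    (hχ : Cfsg.IsCyclicTIFamily W₁ W₂ χ) {k : ℕ} (hk : k.Coprime (Nat.card G))
    (ω : ↥(W₁ ⊔ W₂) →* ℂˣ) (g : G) : χ ω (g ^ k) = χ (ω ^ k) g := by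
  classical
  have := hW.2.2.2.2.1
  letI : CommGroup ↥(W₁ ⊔ W₂) := IsCyclic.commGroup
  let A : Subgroup ↥(W₁ ⊔ W₂) := W₁.subgroupOf _
  let B : Subgroup ↥(W₁ ⊔ W₂) := W₂.subgroupOf _
  have hd : A ⊓ B = ⊥ := by
    rw [eq_bot_iff]
    intro x hx
    have : (x : G) ∈ W₁ ⊓ W₂ := hx
    rw [hW.2.2.1, Subgroup.mem_bot] at this
    exact Subgroup.mem_bot.2 (Subtype.ext this)
  have hs : A ⊔ B = ⊤ := by
    show W₁.subgroupOf (W₁ ⊔ W₂) ⊔ W₂.subgroupOf (W₁ ⊔ W₂) = ⊤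
    rw [← Subgroup.subgroupOf_sup le_sup_left le_sup_right, Subgroup.subgroupOf_self]
  obtain ⟨eA, heA, hsplit⟩ := exists_split A B hd hs
  obtain ⟨eB, heB, -⟩ := exists_split B A (inf_comm B A ▸ hd) (sup_comm B A ▸ hs)
  let P : (↥(W₁ ⊔ W₂) →* ℂˣ) → Prop := fun f => ∀ w : ↥(W₁ ⊔ W₂), (w : G) ∈ W₂ → f w = 1
  let Q : (↥(W₁ ⊔ W₂) →* ℂˣ) → Prop := fun f => ∀ w : ↥(W₁ ⊔ W₂), (w : G) ∈ W₁ → f w = 1
  have hPpow : ∀ a (n : ℕ), P a → P (a ^ n) := fun a n ha w hw => by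
    rw [MonoidHom.pow_apply, ha w hw, one_pow]
  have hQpow : ∀ a (n : ℕ), Q a → Q (a ^ n) := fun a n ha w hw => by
    rw [MonoidHom.pow_apply, ha w hw, one_pow]
  have hdis : ∀ a b, P a → Q b → a * b = 1 → a = 1 := fun a b ha hb h =>
    mul_eq_one_of_trivOn hW ha hb h
  have hdis' : ∀ a b, Q a → P b → a * b = 1 → a = 1 := fun a b ha hb h => by
    rw [hom_mul_comm] at h
    have := hdis b a hb ha h
    rwa [this, hom_one_mul] at h
  have hA : A ≠ ⊥ := fun h => hW.1 (by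
    rw [eq_bot_iff]; intro x hx
    have := Subgroup.mem_bot.1 (h ▸ (show (⟨x, Subgroup.mem_sup_left hx⟩ : ↥(W₁ ⊔ W₂)) ∈ A from hx))
    exact Subgroup.mem_bot.2 (congrArg Subtype.val this))
  have hB : B ≠ ⊥ := fun h => hW.2.1 (by
    rw [eq_bot_iff]; intro x hx
    have := Subgroup.mem_bot.1 (h ▸ (show (⟨x, Subgroup.mem_sup_right hx⟩ : ↥(W₁ ⊔ W₂)) ∈ B from hx))
    exact Subgroup.mem_bot.2 (congrArg Subtype.val this))
  obtain ⟨ψ₀, hψ₀, hψ₀1⟩ : ∃ ψ, Q ψ ∧ ψ ≠ 1 := by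
    have : Nontrivial (B →* ℂˣ) := by
      rw [← Finite.one_lt_card_iff_nontrivial,
        CommGroup.card_monoidHom_of_hasEnoughRootsOfUnity, Subgroup.one_lt_card_iff_ne_bot]
      exact hB
    obtain ⟨l, hl⟩ := exists_ne (1 : B →* ℂˣ)
    refine ⟨(eB.symm l).1, fun w hw => (eB.symm l).2 w hw, fun h => ?_⟩
    have h1 : eB.symm l = eB.symm (eB ⟨1, fun _ _ => rfl⟩) := by
      rw [Equiv.symm_apply_apply]; exact Subtype.ext h
    apply hl
    rw [eB.symm.injective h1]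
    exact MonoidHom.ext fun b => by rw [heB]; simp
  obtain ⟨φ₀, hφ₀, hφ₀1⟩ : ∃ φ, P φ ∧ φ ≠ 1 := by
    have : Nontrivial (A →* ℂˣ) := by
      rw [← Finite.one_lt_card_iff_nontrivial,
        CommGroup.card_monoidHom_of_hasEnoughRootsOfUnity, Subgroup.one_lt_card_iff_ne_bot]
      exact hA
    obtain ⟨l, hl⟩ := exists_ne (1 : A →* ℂˣ)
    refine ⟨(eA.symm l).1, fun w hw => (eA.symm l).2 w hw, fun h => ?_⟩
    have h1 : eA.symm l = eA.symm (eA ⟨1, fun _ _ => rfl⟩) := by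
      rw [Equiv.symm_apply_apply]; exact Subtype.ext h
    apply hl
    rw [eA.symm.injective h1]
    exact MonoidHom.ext fun b => by rw [heA]; simp
  have hPq : ∀ φ, P φ → ∀ g, χ φ (g ^ k) = χ (φ ^ k) g := by
    intro φ hφ g
    by_cases h1 : φ = 1
    · rw [h1, hom_one_pow, hχ.map_one]
    exact congrFun (twist_single hW hodd hχ hk P Q
      (fun ψ hψ h2 g => twist_family hχ hk hφ hψ h1 h2 g) hdis hφ hPpow hQpow hψ₀ h1 hψ₀1) g
  have hQq : ∀ ψ, Q ψ → ∀ g, χ ψ (g ^ k) = χ (ψ ^ k) g := by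
    intro ψ hψ g
    by_cases h2 : ψ = 1
    · rw [h2, hom_one_pow, hχ.map_one]
    refine congrFun (twist_single hW hodd hχ hk Q P (fun φ hφ h1 g => ?_)
      hdis' hψ hQpow hPpow hφ₀ h2 hφ₀1) g
    have := twist_family hχ hk hφ hψ h1 h2 g
    rw [hom_mul_comm φ ψ, hom_mul_comm (φ ^ k)] at this
    linear_combination this
  obtain ⟨φ, ψ, rfl⟩ := hsplit ω
  by_cases h1 : φ.1 = 1
  · rw [h1, hom_one_mul]; exact hQq _ (fun w hw => ψ.2 w hw) g
  by_cases h2 : ψ.1 = 1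
  · rw [h2, hom_mul_one]; exact hPq _ (fun w hw => φ.2 w hw) g
  have h := twist_family hχ hk (fun w hw => φ.2 w hw) (fun w hw => ψ.2 w hw) h1 h2 g
  rw [hPq _ (fun w hw => φ.2 w hw) g, hQq _ (fun w hw => ψ.2 w hw) g] at h
  rw [hom_mul_pow]
  linear_combination h

end CfsgLib.CyclicTI
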