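import Cfsg.Agent.Clifford.Basic
import Cfsg.Agent.Clifford.Gallagher
import Cfsg.Agent.Clifford.RepBasic
import Cfsg.Agent.CharBasics.Induced
import Cfsg.Agent.CharBasics.Extra
import Cfsg.Agent.Components.Cores
import Cfsg.Agent.Hall.StructBatch
import Cfsg.Agent.ZStar.Principal

/-!
# Characters of larger degree and smaller kernel (Broline, Garrison)
-/

set_option autoImplicit false
set_option linter.unusedSectionVars false
set_option linter.style.haveILetI false

namespace CfsgLib.Garrison

open Cfsg CfsgLib.CharBasics CfsgLib.Clifford Subgroup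

variable {G : Type*} [Group G] [Finite G]

/-- A character stays irreducible on a supplement of its kernel. -/
theorem isIrr_restrict_of_sup {χ : G → ℂ} (hχ : IsIrrCharacter G χ) (L H : Subgroup G) [L.Normal]
    (hL : ∀ l ∈ L, χ l = χ 1) (htop : L ⊔ H = ⊤) : IsIrrCharacter H (fun h : H => χ h) := by
  obtain ⟨d, ρ, hρ, hc⟩ := hχ
  refine ⟨d, ρ.comp H.subtype, ?_, funext fun h => by rw [← hc]; rfl⟩
  have hker : ∀ l ∈ L, ρ l = 1 := fun l hl => eq_id_of_character_eq ρ l (by rw [hc]; exact hL l hl)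
  let e : Subrepresentation ρ ≃o Subrepresentation (ρ.comp H.subtype : Representation ℂ H (Fin d → ℂ)) :=
    { toFun := fun W => ⟨W.toSubmodule, fun g v hv => W.apply_mem_toSubmodule (g : G) hv⟩
      invFun := fun W => ⟨W.toSubmodule, fun g v hv => by
        obtain ⟨l, hl, h, hh, rfl⟩ := mem_sup_of_normal_left.1 (htop ▸ mem_top g : g ∈ L ⊔ H)
        rw [map_mul, hker l hl, one_mul]
        exact W.apply_mem_toSubmodule ⟨h, hh⟩ hv⟩
      left_inv := fun W => rfl
      right_inv := fun W => rfl
      map_rel_iff' := Iff.rfl }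
  exact e.symm.isSimpleOrder

/-- A constituent takes its degree where the character does. -/
theorem kernel_of_sum {A : Type*} [Group A] [Finite A] {r : ℕ} (ψ : Fin r → A → ℂ) (hψ : ∀ i, IsIrrCharacter A (ψ i))
    {a : A} (h : ∑ i, ψ i a = ∑ i, ψ i 1) (i : Fin r) : ψ i a = ψ i 1 := by
  have hre : ∀ j, (ψ j a).re ≤ (ψ j 1).re := fun j => by
    rw [apply_one (isCharacter_of_irr (hψ j)), Complex.natCast_re]
    exact (Complex.re_le_norm _).trans (norm_le (isCharacter_of_irr (hψ j)) a)
  have heq : ∑ j, (ψ j a).re = ∑ j, (ψ j 1).re := by rw [← Complex.re_sum, ← Complex.re_sum, h]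
  have hi := (Finset.sum_eq_sum_iff_of_le (fun j _ => hre j)).1 heq i (Finset.mem_univ i)
  rw [apply_one (isCharacter_of_irr (hψ i)), Complex.natCast_re] at hi
  have hn := norm_le (isCharacter_of_irr (hψ i)) a
  have him : (ψ i a).im = 0 := by
    have h2 := Complex.sq_norm (ψ i a)
    rw [Complex.normSq_apply, hi] at h2
    have h3 : ‖ψ i a‖ ^ 2 ≤ (charDegree (ψ i) : ℝ) ^ 2 := pow_le_pow_left₀ (norm_nonneg _) hn 2
    nlinarith
  refine Complex.ext ?_ ?_
  · rw [apply_one (isCharacter_of_irr (hψ i)), Complex.natCast_re, hi]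
  · rw [apply_one (isCharacter_of_irr (hψ i)), Complex.natCast_im, him]

/-- The general step: a nonvanishing element of a maximal supplement of the kernel outside its core. -/
theorem exists_larger (χ : IrrCharacter G) (K H : Subgroup G) [K.Normal]
    (hK : ∀ g : G, g ∈ K ↔ (χ : G → ℂ) g = (χ : G → ℂ) 1) (hH : IsCoatom H) (hKH : ¬ K ≤ H)
    (hex : ∃ h ∈ H, h ∉ H.normalCore ∧ (χ : G → ℂ) h ≠ 0) :
    ∃ ψ : IrrCharacter G, charDegree (χ : G → ℂ) < charDegree (ψ : G → ℂ) ∧
      ∃ L : Subgroup G, (∀ g : G, g ∈ L ↔ (ψ : G → ℂ) g = (ψ : G → ℂ) 1) ∧ L < K := by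
  classical
  letI : Fintype G := Fintype.ofFinite G
  letI : Fintype H := Fintype.ofFinite H
  have hKtop : K ⊔ H = ⊤ := hH.2 _ (lt_of_le_of_ne le_sup_right fun e => hKH (e ▸ le_sup_left))
  have hχH := isIrr_restrict_of_sup χ.2 K H (fun l hl => (hK l).1 hl) hKtop
  set π : G → ℂ := indFun H fun _ => 1
  set θ : G → ℂ := π * (χ : G → ℂ) with hθ
  have hθc : IsCharacter G θ := by
    refine CharBasics.isCharacter_mul ?_ (isCharacter_of_irr χ.2)
    exact isCharacter_indFun H (isCharacter_of_irr isIrrCharacter_one)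
  have hθind : indFun H (fun h : H => (χ : G → ℂ) h) = θ := by
    rw [hθ, ← indFun_mul_restrict H (fun _ => 1) (isClassFunction (isCharacter_of_irr χ.2))]
    simp only [one_mul]
  obtain ⟨r, ψ, hψ, hsum⟩ := exists_decomp hθc
  have hcon : ∀ i, ∃ (s : ℕ) (φ : Fin s → H → ℂ), (∀ j, IsIrrCharacter H (φ j)) ∧
      (fun h : H => ψ i h) = ∑ j, φ j ∧ ∃ j, φ j = fun h : H => (χ : G → ℂ) h := by
    intro i
    obtain ⟨s, φ, hφ, hs⟩ := exists_decomp (CharBasics.isCharacter_restrict (isCharacter_of_irr (hψ i)) H)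
    refine ⟨s, φ, hφ, hs, ?_⟩
    by_contra hno
    push Not at hno
    have h0 : classInner θ (ψ i) = 0 := by
      rw [← hθind, classInner_indFun H _ (isClassFunction (isCharacter_of_irr (hψ i))), hs, classInner_sum_right]
      exact Finset.sum_eq_zero fun j _ => classInner_ne hχH (hφ j) (fun e => hno j e.symm)
    rw [hsum, classInner_sum_left] at h0
    have h1 : ∑ l, classInner (ψ l) (ψ i) = ((Finset.univ.filter fun l => ψ l = ψ i).card : ℂ) := by
      rw [Finset.card_filter]
      push_cast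
      refine Finset.sum_congr rfl fun l _ => ?_
      split_ifs with hl
      · rw [hl, classInner_self (hψ i)]
      · exact classInner_ne (hψ l) (hψ i) hl
    rw [h1] at h0
    have : (Finset.univ.filter fun l => ψ l = ψ i).card = 0 := by exact_mod_cast h0
    exact absurd (Finset.card_eq_zero.1 this ▸ Finset.mem_filter.2 ⟨Finset.mem_univ i, rfl⟩ : i ∈ (∅ : Finset (Fin r)))
      (Finset.notMem_empty i)
  have hdeg : ∀ i, charDegree (χ : G → ℂ) ≤ charDegree (ψ i) ∧
      (charDegree (χ : G → ℂ) = charDegree (ψ i) → ∀ h : H, ψ i h = (χ : G → ℂ) h) := by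
    intro i
    obtain ⟨s, φ, hφ, hs, j, hj⟩ := hcon i
    have h1 := congrFun hs 1
    simp only [Finset.sum_apply, OneMemClass.coe_one] at h1
    rw [apply_one (isCharacter_of_irr (hψ i)), Finset.sum_congr rfl (fun l _ => apply_one (isCharacter_of_irr (hφ l)))] at h1
    rw [← Nat.cast_sum, Nat.cast_inj] at h1
    have hjd : charDegree (φ j) = charDegree (χ : G → ℂ) := by
      rw [hj]; simp only [charDegree, OneMemClass.coe_one]
    have hle : charDegree (φ j) ≤ ∑ l, charDegree (φ l) :=
      Finset.single_le_sum (f := fun l => charDegree (φ l)) (fun l _ => Nat.zero_le _) (Finset.mem_univ j)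
    refine ⟨by omega, fun he h => ?_⟩
    have honly : ∀ l, l = j := fun l => by
      by_contra hl
      have h2 : charDegree (φ j) + charDegree (φ l) ≤ ∑ m, charDegree (φ m) := by
        rw [← Finset.sum_pair (f := fun m => charDegree (φ m)) (Ne.symm hl)]
        exact Finset.sum_le_sum_of_subset (Finset.subset_univ _)
      have := charDegree_pos (hφ l)
      omega
    have h3 := congrFun hs h
    simp only [Finset.sum_apply] at h3
    rw [h3, Finset.sum_eq_single j (fun l _ hl => absurd (honly l) hl) (by simp), hj]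
  -- some constituent has larger degree
  obtain ⟨i, hi⟩ : ∃ i, charDegree (χ : G → ℂ) < charDegree (ψ i) := by
    by_contra hall
    push Not at hall
    obtain ⟨h₀, hh₀, hcore, hne⟩ := hex
    have hval : ∀ h : H, θ h = (r : ℂ) * (χ : G → ℂ) h := fun h => by
      rw [hsum, Finset.sum_apply, Finset.sum_congr rfl fun l _ => (hdeg l).2 (le_antisymm (hdeg l).1 (hall l)) h,
        Finset.sum_const, Finset.card_univ, Fintype.card_fin, nsmul_eq_mul]
    have hr : (r : ℂ) = H.index := by
      have h1 := hval 1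
      simp only [hθ, Pi.mul_apply, OneMemClass.coe_one, π, indFun_apply_one, mul_one] at h1
      exact (mul_right_cancel₀ (apply_one_ne_zero χ.2) h1).symm
    have h2 := hval ⟨h₀, hh₀⟩
    simp only [hθ, Pi.mul_apply, hr] at h2
    have hπ : π h₀ = (H.index : ℂ) := mul_right_cancel₀ hne h2
    refine hcore fun x => ?_
    have hcard : (Nat.card H : ℂ)⁻¹ * ((Finset.univ.filter fun y : G => y⁻¹ * h₀ * y ∈ H).card : ℂ) = H.index := by
      rw [← hπ]
      simp only [π, indFun]
      congr 1
      rw [Finset.card_filter]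
      push_cast
      refine Finset.sum_congr rfl fun y _ => ?_
      split_ifs with hy
      · exact (extendByZero_coe H (fun _ => (1 : ℂ)) ⟨_, hy⟩).symm
      · exact (extendByZero_of_not_mem H _ hy).symm
    rw [inv_mul_eq_iff_eq_mul₀ (Nat.cast_ne_zero.2 Nat.card_pos.ne'), ← Nat.cast_mul, Nat.cast_inj, H.card_mul_index,
      Nat.card_eq_fintype_card] at hcard
    have hmem : x⁻¹ ∈ (Finset.univ.filter fun y : G => y⁻¹ * h₀ * y ∈ H) := by
      rw [Finset.eq_univ_of_card _ hcard]; exact Finset.mem_univ _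
    simpa using (Finset.mem_filter.1 hmem).2
  refine ⟨⟨ψ i, hψ i⟩, hi, charKer (ψ i) (isCharacter_of_irr (hψ i)), fun g => Iff.rfl, ?_⟩
  obtain ⟨s, φ, hφ, hs, j, hj⟩ := hcon i
  set L := charKer (ψ i) (isCharacter_of_irr (hψ i))
  haveI : L.Normal := charKer_normal _
  have hLH : L ≤ H := by
    by_contra hLH
    have htop : L ⊔ H = ⊤ := hH.2 _ (lt_of_le_of_ne le_sup_right fun e => hLH (e ▸ le_sup_left))
    have hirr := isIrr_restrict_of_sup (hψ i) L H (fun l hl => hl) htop
    have heq : (fun h : H => ψ i h) = fun h : H => (χ : G → ℂ) h := by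
      by_contra hne
      have h0 := classInner_ne hirr hχH hne
      rw [hs, classInner_sum_left, ← hj] at h0
      have h1 : ∑ l, classInner (φ l) (φ j) = ((Finset.univ.filter fun l => φ l = φ j).card : ℂ) := by
        rw [Finset.card_filter]
        push_cast
        refine Finset.sum_congr rfl fun l _ => ?_
        split_ifs with hl
        · rw [hl, classInner_self (hφ j)]
        · exact classInner_ne (hφ l) (hφ j) hl
      rw [h1] at h0
      have : (Finset.univ.filter fun l => φ l = φ j).card = 0 := by exact_mod_cast h0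
      exact (Finset.card_pos.2 ⟨j, (Finset.mem_filter.2 ⟨Finset.mem_univ j, rfl⟩ : j ∈ Finset.univ.filter fun l => φ l = φ j)⟩).ne' this
    have h1 := congrFun heq 1
    simp only [OneMemClass.coe_one] at h1
    simp only [charDegree, h1] at hi
    exact lt_irrefl _ hi
  refine lt_of_le_of_ne (fun l hl => ?_) fun e => hKH (e ▸ hLH)
  rw [hK]
  have hls : ∑ m, φ m ⟨l, hLH hl⟩ = ∑ m, φ m 1 := by
    have a := congrFun hs ⟨l, hLH hl⟩
    have b := congrFun hs 1
    simp only [Finset.sum_apply, OneMemClass.coe_one] at a b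
    rw [← a, ← b]; exact hl
  have h := kernel_of_sum φ hφ hls j
  rw [hj] at h
  exact h

/-- A normal subgroup holding the Sylow subgroup `P` of `K` gives a supplement to its normalizer. -/
theorem frattini_step {p : ℕ} [Fact p.Prime] (K C : Subgroup G) [C.Normal] (hC : C ≤ K) (P : Sylow p K)
    (hP : (P : Subgroup K).map K.subtype ≤ C) :
    normalizer (((P : Subgroup K).map K.subtype : Subgroup G) : Set G) ⊔ C = ⊤ := by
  set P' := (P : Subgroup K).map K.subtype
  have hp' : IsPGroup p (P'.subgroupOf C) := (P.isPGroup'.map K.subtype).of_equiv (subgroupOfEquivOfLe hP).symm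
  obtain ⟨Q, hQ⟩ := hp'.exists_le_sylow
  have he : (Q : Subgroup C).map C.subtype = P' := by
    refine le_antisymm ?_ fun x hx => ⟨⟨x, hP hx⟩, hQ hx, rfl⟩
    have hR : IsPGroup p (((Q : Subgroup C).map C.subtype).subgroupOf K) :=
      (Q.isPGroup'.map C.subtype).of_equiv (subgroupOfEquivOfLe ((map_subtype_le _).trans hC)).symm
    have := P.is_maximal' hR fun x hx => ⟨⟨x, hP ⟨x, hx, rfl⟩⟩, hQ ⟨x, hx, rfl⟩, rfl⟩
    intro x hx
    exact ⟨⟨x, hC ((map_subtype_le _) hx)⟩, this ▸ hx, rfl⟩
  have := Sylow.normalizer_sup_eq_top Q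
  rwa [he] at this

/-- A kernel outside the Fitting subgroup, or equal to it in a solvable quotient. -/
theorem exists_larger_of_kernel (χ : IrrCharacter G) (K : Subgroup G) [K.Normal]
    (hK : ∀ g : G, g ∈ K ↔ (χ : G → ℂ) g = (χ : G → ℂ) 1)
    (h : ¬ K ≤ fittingSubgroup G ∨ (K = fittingSubgroup G ∧ Group.IsSolvable (G ⧸ K) ∧ K ≠ ⊤)) :
    ∃ ψ : IrrCharacter G, charDegree (χ : G → ℂ) < charDegree (ψ : G → ℂ) ∧
      ∃ L : Subgroup G, (∀ g : G, g ∈ L ↔ (ψ : G → ℂ) g = (ψ : G → ℂ) 1) ∧ L < K := by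
  classical
  rcases h with h | ⟨hKF, hsol, hKtop⟩
  · have hnil : ¬ Group.IsNilpotent K := fun hn => h (Components.le_fittingSubgroup inferInstance hn)
    rw [(Group.isNilpotent_of_finite_tfae (G := K)).out 0 3 rfl rfl] at hnil
    push Not at hnil
    obtain ⟨p, hp, P, hP⟩ := hnil
    haveI := hp
    set P' := (P : Subgroup K).map K.subtype
    set N := normalizer (P' : Set G)
    have hN : N ≠ ⊤ := fun e => hP (by
      haveI : P'.Normal := normalizer_eq_top_iff.1 e
      have : (P : Subgroup K) = P'.subgroupOf K := (comap_map_eq_self_of_injective K.subtype_injective _).symm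
      rw [this]; infer_instance)
    obtain ⟨H, hH, hNH⟩ := (eq_top_or_exists_le_coatom N).resolve_left hN
    refine exists_larger χ K H hK hH (fun hKH => hH.1 (top_le_iff.1 ?_)) ?_
    · rw [← frattini_step K K le_rfl P (map_subtype_le _)]
      exact sup_le hNH hKH
    by_contra hno
    push Not at hno
    refine hH.1 (top_le_iff.1 ?_)
    rw [← frattini_step K (H.normalCore ⊓ K) inf_le_right P ?_]
    · exact sup_le hNH (inf_le_left.trans (normalCore_le H))
    intro x hx
    have hxK : x ∈ K := map_subtype_le _ hx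
    refine ⟨by_contra fun hc => apply_one_ne_zero χ.2 ?_, hxK⟩
    rw [← (hK x).1 hxK]
    exact hno x (hNH (le_normalizer hx)) hc
  · letI : Fintype G := Fintype.ofFinite G
    haveI := hsol
    haveI : Nontrivial (G ⧸ K) := QuotientGroup.nontrivial_iff.2 hKtop
    obtain ⟨Mb, ⟨hMn, hM0⟩, hMmin'⟩ := Set.Finite.exists_minimal (s := {X : Subgroup (G ⧸ K) | X.Normal ∧ X ≠ ⊥})
      (Set.toFinite _) ⟨⊤, inferInstance, top_ne_bot⟩
    haveI := hMn
    have hMmin : ∀ X : Subgroup (G ⧸ K), X.Normal → X ≤ Mb → X = ⊥ ∨ X = Mb := fun X hX hle =>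
      or_iff_not_imp_left.2 fun h0 => le_antisymm hle (hMmin' ⟨hX, h0⟩ hle)
    obtain ⟨q, hq, -, -, hpow⟩ := Hall.IsMinNormal.elementaryAbelian (N := Mb) ⟨inferInstance, hM0, hMmin⟩
    haveI := Fact.mk hq
    set M := Mb.comap (QuotientGroup.mk' K) with hM
    have hKM : K ≤ M := fun k hk => by
      show (QuotientGroup.mk' K) k ∈ Mb
      rw [QuotientGroup.mk'_apply, (QuotientGroup.eq_one_iff k).2 hk]; exact Mb.one_mem
    haveI : M.Normal := hMn.comap _
    obtain ⟨Q⟩ : Nonempty (Sylow q M) := inferInstance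
    set Q' := (Q : Subgroup M).map M.subtype
    have hQM : Q' ≤ M := map_subtype_le _
    -- `M = K Q'`
    have hMQ : M ≤ K ⊔ Q' := by
      intro m hm
      have hmq : (QuotientGroup.mk' K m) ^ q = 1 := hpow _ hm
      set R := (K ⊔ Q').subgroupOf M
      haveI : (K.subgroupOf M).Normal := inferInstance
      by_contra hout
      have h1 : R.index ∣ (K.subgroupOf M).index := index_dvd_of_le fun z hz => mem_sup_left hz
      have h2 : R.index ∣ (Q : Subgroup M).index := index_dvd_of_le fun z hz => mem_sup_right ⟨z, hz, rfl⟩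
      have h3 : IsPGroup q (M ⧸ K.subgroupOf M) := fun z => by
        obtain ⟨z, rfl⟩ := QuotientGroup.mk_surjective z
        refine ⟨1, ?_⟩
        rw [pow_one, ← QuotientGroup.mk_pow, QuotientGroup.eq_one_iff]
        show ((z ^ q : M) : G) ∈ K
        rw [SubgroupClass.coe_pow, ← QuotientGroup.eq_one_iff, QuotientGroup.mk_pow]
        exact hpow _ z.2
      obtain ⟨a, ha⟩ := h3.exists_card_eq
      rw [Subgroup.index_eq_card (H := K.subgroupOf M), ha] at h1
      obtain ⟨b, -, hb⟩ := (Nat.dvd_prime_pow hq).1 h1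
      rcases Nat.eq_zero_or_pos b with rfl | hb0
      · rw [pow_zero, Subgroup.index_eq_one] at hb
        exact hout (hb ▸ mem_top (⟨m, hm⟩ : M) : (⟨m, hm⟩ : M) ∈ R)
      · exact Q.not_dvd_index ((hb ▸ dvd_pow_self q hb0.ne').trans h2)
    set N := normalizer (Q' : Set G)
    have hsup : N ⊔ K = ⊤ := by
      rw [eq_top_iff, ← frattini_step M M le_rfl Q (map_subtype_le _)]
      refine sup_le le_sup_left (hMQ.trans (sup_le le_sup_right (le_sup_of_le_left le_normalizer)))
    have hMK : ¬ M ≤ K := fun hle => hM0 (eq_bot_iff.2 fun z hz => by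
      obtain ⟨g, rfl⟩ := QuotientGroup.mk_surjective z
      exact mem_bot.2 ((QuotientGroup.eq_one_iff g).2 (hle hz)))
    have hN : N ≠ ⊤ := fun e => hMK (hMQ.trans (sup_le le_rfl (by
      haveI : Q'.Normal := normalizer_eq_top_iff.1 e
      rw [hKF]
      exact Components.le_fittingSubgroup inferInstance (Q.isPGroup'.map M.subtype).isNilpotent)))
    obtain ⟨H, hH, hNH⟩ := (eq_top_or_exists_le_coatom N).resolve_left hN
    refine exists_larger χ K H hK hH (fun hKH => hH.1 (top_le_iff.1 (hsup ▸ sup_le hNH hKH))) ?_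
    by_contra hno
    push Not at hno
    have hQH : Q' ≤ H := le_normalizer.trans hNH
    have hQcore : ∀ s ∈ Q', (χ : G → ℂ) s ≠ 0 → s ∈ H.normalCore := fun s hs hne =>
      by_contra fun hc => hne (hno s (hQH hs) hc)
    set C := H.normalCore ⊓ M
    -- `χ` vanishes on `M` outside `K`
    have hvan : ∀ x ∈ M, x ∉ K → (χ : G → ℂ) x = 0 := by
      intro x hx hxK
      obtain ⟨k, hk, s, hs, rfl⟩ := mem_sup_of_normal_left.1 (hMQ hx)
      rw [apply_mul_of_apply_eq (isCharacter_of_irr χ.2) ((hK k).1 hk) s]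
      by_contra hne
      have hsC : s ∈ C := ⟨hQcore s hs hne, hQM hs⟩
      have himg : (C.map (QuotientGroup.mk' K)) = Mb := by
        refine (hMmin _ (Subgroup.Normal.map inferInstance _ (QuotientGroup.mk'_surjective K)) ?_).resolve_left fun hb => ?_
        · rintro _ ⟨c, hc, rfl⟩; exact hc.2
        · have h1 := mem_bot.1 (hb ▸ mem_map_of_mem (QuotientGroup.mk' K) hsC)
          exact hxK (K.mul_mem hk ((QuotientGroup.eq_one_iff s).1 h1))
      -- then `C` holds `Q'`
      have hQC : Q' ≤ C := by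
        intro t ht
        obtain ⟨c, hc, hct⟩ : QuotientGroup.mk' K t ∈ C.map (QuotientGroup.mk' K) := himg.symm ▸ hQM ht
        have htc : c⁻¹ * t ∈ K := QuotientGroup.eq.1 hct
        obtain ⟨a, ha⟩ := IsPGroup.iff_orderOf.1 (Q.isPGroup'.map M.subtype) ⟨t, ht⟩
        rw [orderOf_mk] at ha
        set f := QuotientGroup.mk' C
        have hf1 : f t ^ q ^ a = 1 := by rw [← map_pow, ← ha, pow_orderOf_eq_one, map_one]
        have hft : f t = f (c⁻¹ * t) := by
          rw [map_mul, map_inv, (QuotientGroup.eq_one_iff c).2 hc |> fun e => (show f c = 1 from e), inv_one, one_mul]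
        -- the `q`-elements of `K` lie in `C`
        obtain ⟨u, v, huv, -, ⟨e, hu⟩, hv, huz, -⟩ := ZStar.exists_pPart hq (c⁻¹ * t)
        have huK : u ∈ K := (zpowers_le.2 htc) huz
        have huC : u ∈ C := by
          obtain ⟨T, hT⟩ := ((IsPGroup.of_card (n := e) (by rw [Nat.card_zpowers, hu]) : IsPGroup q (zpowers u)).of_equiv
            (subgroupOfEquivOfLe (zpowers_le.2 (hKM huK))).symm : IsPGroup q ((zpowers u).subgroupOf M)).exists_le_sylow
          obtain ⟨g, hg⟩ := MulAction.exists_smul_eq M T Q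
          have hmem : (g : G) * u * (g : G)⁻¹ ∈ Q' := by
            refine ⟨g * ⟨u, hKM huK⟩ * g⁻¹, ?_, rfl⟩
            have h1 : (g • T : Sylow q M).1 = (Q : Subgroup M) := congrArg Sylow.toSubgroup hg
            rw [← h1]
            exact Subgroup.mem_map_of_mem _ (hT (show (⟨u, hKM huK⟩ : M) ∈ (zpowers u).subgroupOf M from mem_zpowers u))
          have hgK : (g : G) * u * (g : G)⁻¹ ∈ K := Normal.conj_mem inferInstance u huK g
          have hgC : (g : G) * u * (g : G)⁻¹ ∈ C := ⟨hQcore _ hmem (by rw [(hK _).1 hgK]; exact apply_one_ne_zero χ.2), hKM hgK⟩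
          have := (inferInstance : C.Normal).conj_mem _ hgC (g : G)⁻¹
          simpa [mul_assoc] using this
        have hfv : f t = f v := by
          rw [hft, ← huv, map_mul, show f u = 1 from (QuotientGroup.eq_one_iff u).2 huC, one_mul]
        refine (QuotientGroup.eq_one_iff t).1 ?_
        have h1 : orderOf (f t) ∣ q ^ a := orderOf_dvd_of_pow_eq_one hf1
        have h2 : orderOf (f t) ∣ orderOf v := hfv ▸ orderOf_map_dvd f v
        exact orderOf_eq_one_iff.1 (Nat.eq_one_of_dvd_coprimes ((hq.coprime_iff_not_dvd.2 hv).pow_left a) h1 h2)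
      refine hH.1 (top_le_iff.1 ?_)
      rw [← frattini_step M C inf_le_right Q hQC]
      exact sup_le hNH (inf_le_left.trans (normalCore_le H))
    -- so the trivial character lies under `χ`
    letI : Fintype G := Fintype.ofFinite G
    letI : Fintype M := Fintype.ofFinite M
    have hne : classInner (fun m : M => (χ : G → ℂ) m) (fun _ => 1) ≠ 0 := by
      rw [classInner_one, Finset.sum_congr rfl (g := fun m : M => if (m : G) ∈ K then (χ : G → ℂ) 1 else 0) (fun m _ => by
        split_ifs with hm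
        · exact (hK m).1 hm
        · exact hvan m m.2 hm), ← Finset.sum_filter, Finset.sum_const, nsmul_eq_mul]
      refine mul_ne_zero (inv_ne_zero (Nat.cast_ne_zero.2 ?_)) (mul_ne_zero (Nat.cast_ne_zero.2 ?_) (apply_one_ne_zero χ.2))
      · exact Nat.card_pos.ne'
      · exact Finset.card_ne_zero.2 ⟨1, Finset.mem_filter.2 ⟨Finset.mem_univ _, K.one_mem⟩⟩
    have hsmul := restrict_eq_smul_of_invariant χ.2 isIrrCharacter_one (fun g => rfl) hne
    refine hMK fun m hm => (hK m).2 ?_
    have a1 := congrFun hsmul ⟨m, hm⟩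
    have a2 := congrFun hsmul 1
    simp only [Pi.smul_apply, OneMemClass.coe_one] at a1 a2
    rw [a1, a2]

end CfsgLib.Garrison
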