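import Cfsg.Agent.CharBasics.Extra
import Cfsg.Agent.BrauerInd.FSInd

/-!
A real constituent of multiplicity one of a restriction has the same Frobenius–Schur indicator.
-/

set_option autoImplicit false

namespace CfsgLib.CharBasics

open Cfsg CfsgLib.BrauerInd
open scoped Matrix ComplexConjugate

/-- An idempotent matrix factors through its image. -/
theorem idempotent_factor {n : ℕ} {e : Matrix (Fin n) (Fin n) ℂ} (he : e * e = e) :
    ∃ (d : ℕ) (J : Matrix (Fin n) (Fin d) ℂ) (L : Matrix (Fin d) (Fin n) ℂ), L * J = 1 ∧ J * L = e := by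
  classical
  set f := Matrix.toLin' e
  let W := LinearMap.range f
  let eq := (Module.finBasis ℂ W).equivFun
  refine ⟨_, LinearMap.toMatrix' (W.subtype ∘ₗ eq.symm.toLinearMap),
    LinearMap.toMatrix' (eq.toLinearMap ∘ₗ f.rangeRestrict), ?_, ?_⟩
  · rw [← LinearMap.toMatrix'_comp, ← LinearMap.toMatrix'_id]
    congr 1
    refine LinearMap.ext fun v => ?_
    have hfix : f.rangeRestrict ((eq.symm v : W) : Fin n → ℂ) = eq.symm v := by
      refine Subtype.ext ?_
      obtain ⟨u, hu⟩ := (eq.symm v).2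
      show f _ = _
      rw [← hu, ← Matrix.toLin'_mul_apply, he]
    simp [hfix]
  · rw [← LinearMap.toMatrix'_comp]
    have : (W.subtype ∘ₗ eq.symm.toLinearMap) ∘ₗ (eq.toLinearMap ∘ₗ f.rangeRestrict) = f :=
      LinearMap.ext fun v => by simp
    rw [this]; exact LinearMap.toMatrix'_toLin' e

variable {G : Type*} [Group G] [Fintype G]

theorem ind_eq_of_mult_one (H : Subgroup G) [Fintype H] (χ : IrrCharacter G) (θ : IrrCharacter H)
    (hχr : ∀ g, ((χ : G → ℂ) g).im = 0) (hθr : ∀ h, ((θ : H → ℂ) h).im = 0)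
    (h1 : classInner (fun h : H => (χ : G → ℂ) h) (θ : H → ℂ) = 1) :
    ind (χ : G → ℂ) = ind (θ : H → ℂ) := by
  classical
  haveI : Fintype (IrrCharacter H) := Fintype.ofFinite _
  obtain ⟨χ, hχirr⟩ := χ
  obtain ⟨n, ρ, hρ, rfl⟩ := id hχirr
  obtain ⟨θ, hθirr⟩ := θ
  simp only at hχr hθr h1 ⊢
  set A := matHom ρ
  have htr : ∀ g, (A g).trace = ρ.character g := fun g => congrFun (trace_matHom ρ) g
  have hfr := (finrank_invForms_irr ρ hχirr).1 hχr
  obtain ⟨⟨M, hM⟩, hne, -⟩ := finrank_eq_one_iff'.1 hfr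
  have hM0 : M ≠ 0 := fun h0 => hne (Subtype.ext h0)
  have hMA : ∀ g, M * A g = (A g⁻¹)ᵀ * M := by
    intro g
    have h3 := (mem_invForms.1 hM) g
    calc M * A g = ((A g⁻¹)ᵀ * (A g)ᵀ) * (M * A g) := by
          rw [← Matrix.transpose_mul, ← map_mul, mul_inv_cancel, map_one, Matrix.transpose_one, Matrix.one_mul]
      _ = (A g⁻¹)ᵀ * ((A g)ᵀ * M * A g) := by simp only [Matrix.mul_assoc]
      _ = _ := by rw [h3]
  -- `M` is nondegenerate
  let W : Subrepresentation ρ := ⟨LinearMap.ker M.mulVecLin, fun g v hv => by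
    rw [LinearMap.mem_ker, Matrix.mulVecLin_apply] at hv ⊢
    have h4 : ρ g v = (A g).mulVec v := by
      show _ = (matHom ρ g).mulVec v
      rw [matHom_apply, ← Matrix.toLin'_apply, Matrix.toLin'_toMatrix']
    rw [h4, Matrix.mulVec_mulVec, hMA, ← Matrix.mulVec_mulVec, hv, Matrix.mulVec_zero]⟩
  have hinj : ∀ v, M.mulVec v = 0 → v = 0 := by
    intro v hv
    rcases hρ.eq_bot_or_eq_top W with h' | h'
    · have h5 : W.toSubmodule = ⊥ := congrArg Subrepresentation.toSubmodule h'
      exact (Submodule.mem_bot ℂ).1 (h5 ▸ (show v ∈ W.toSubmodule from LinearMap.mem_ker.2 hv))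
    · refine absurd (Matrix.ext fun i j => ?_) hM0
      have h5 : W.toSubmodule = ⊤ := congrArg Subrepresentation.toSubmodule h'
      have h6 : M.mulVec (Pi.single j 1) = 0 :=
        LinearMap.mem_ker.1 (show Pi.single j (1 : ℂ) ∈ W.toSubmodule from h5 ▸ Submodule.mem_top)
      simpa using congrFun h6 i
  -- the projection
  have hθc := isCharacter_of_irr hθirr
  have hθinv : ∀ h : H, θ h⁻¹ = θ h := fun h => by rw [apply_inv hθc, Complex.conj_eq_iff_im.2 (hθr h)]
  set c : ℂ := θ 1 / (Nat.card H : ℂ) with hc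
  set e : Matrix (Fin n) (Fin n) ℂ := ∑ i : H, (c * θ i) • A i with he
  have hH : (Nat.card H : ℂ) ≠ 0 := Nat.cast_ne_zero.2 Nat.card_pos.ne'
  have hconv : ∀ (ψ : IrrCharacter H) (y : H), c * ∑ i : H, θ i * (ψ : H → ℂ) (i⁻¹ * y)
      = if (⟨θ, hθirr⟩ : IrrCharacter H) = ψ then θ y else 0 := by
    intro ψ y
    have h := conv_irr (⟨θ, hθirr⟩ : IrrCharacter H) ψ y
    simp only at h
    split_ifs with heq
    · subst heq
      rw [if_pos rfl] at h
      simp only at h ⊢
      rw [hc, div_mul_eq_mul_div, h, mul_div_cancel_left₀ _ hH]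
    · rw [if_neg heq] at h
      rw [(mul_eq_zero.1 h).resolve_left (apply_one_ne_zero ψ.2), mul_zero]
  have hidem : e * e = e := by
    rw [he, Finset.sum_mul]
    simp only [Finset.mul_sum, smul_mul_assoc, mul_smul_comm, smul_smul, ← map_mul, ← Subgroup.coe_mul]
    calc ∑ a : H, ∑ b : H, (c * θ b * (c * θ a)) • A ((a * b : H) : G)
        = ∑ a : H, ∑ b : H, (c * θ a * (c * θ b)) • A ((a * b : H) : G) :=
          Finset.sum_congr rfl fun a _ => Finset.sum_congr rfl fun b _ => by rw [mul_comm (c * θ b)]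
      _ = ∑ a : H, ∑ y : H, (c * θ a * (c * θ (a⁻¹ * y))) • A (y : G) :=
          Finset.sum_congr rfl fun a _ => Fintype.sum_equiv (Equiv.mulLeft a) _ _ fun b => by simp
      _ = ∑ y : H, (c * θ y) • A (y : G) := by
          rw [Finset.sum_comm]
          refine Finset.sum_congr rfl fun y _ => ?_
          rw [← Finset.sum_smul]
          congr 1
          have h := hconv ⟨θ, hθirr⟩ y
          rw [if_pos rfl] at h
          rw [← h, Finset.mul_sum, Finset.mul_sum]
          exact Finset.sum_congr rfl fun a _ => by ring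
  have hcomm : ∀ a : H, A a * e = e * A a := by
    intro a
    simp only [he, Finset.mul_sum, Finset.sum_mul, smul_mul_assoc, mul_smul_comm, ← map_mul]
    refine Fintype.sum_equiv (MulAut.conj a).toEquiv _ _ fun b => ?_
    show _ = (c * θ (a * b * a⁻¹)) • A (((a * b * a⁻¹ : H) : G) * a)
    rw [isClassFunction hθc b a]
    congr 2
    simp [mul_assoc]
  have htre : ∀ a : H, (A a * e).trace = θ a := by
    intro a
    have hres := classFun_expand (isClassFunction (isCharacter_restrict (isCharacter_of_irr hχirr) H))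
    simp only [he, Finset.mul_sum, mul_smul_comm, Matrix.trace_sum, Matrix.trace_smul, ← map_mul, htr,
      smul_eq_mul]
    have e1 : ∀ b : H, ρ.character ((a : G) * b) =
        ∑ ψ : IrrCharacter H, classInner (fun h : H => ρ.character h) (ψ : H → ℂ) * (ψ : H → ℂ) (a * b) := fun b => by
      have := congrFun hres (a * b)
      simpa using this
    have e2 : ∀ ψ : IrrCharacter H, ∑ b : H, c * θ b * (ψ : H → ℂ) (a * b) =
        if (⟨θ, hθirr⟩ : IrrCharacter H) = ψ then θ a else 0 := by
      intro ψ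
      rw [← hconv ψ a, Finset.mul_sum]
      refine Fintype.sum_equiv (Equiv.inv H) _ _ fun b => ?_
      rw [Equiv.inv_apply, inv_inv, hθinv, apply_mul_comm (isCharacter_of_irr ψ.2), mul_assoc]
    rw [Finset.sum_congr rfl (fun b _ => by rw [e1 b, Finset.mul_sum] :
      ∀ b ∈ (Finset.univ : Finset H), _ = ∑ ψ : IrrCharacter H, c * θ b *
        (classInner (fun h : H => ρ.character h) (ψ : H → ℂ) * (ψ : H → ℂ) (a * b))), Finset.sum_comm,
      Finset.sum_eq_single (⟨θ, hθirr⟩ : IrrCharacter H)]
    · have h := e2 ⟨θ, hθirr⟩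
      rw [if_pos rfl] at h
      refine Eq.trans ?_ h
      exact Finset.sum_congr rfl fun b _ => by rw [h1, one_mul]
    · intro ψ _ hψ
      have h := e2 ψ
      rw [if_neg hψ.symm] at h
      rw [← mul_zero (classInner (fun h : H => ρ.character h) (ψ : H → ℂ)), ← h, Finset.mul_sum]
      exact Finset.sum_congr rfl fun b _ => by ring
    · exact fun h => absurd (Finset.mem_univ _) h
  have heM : eᵀ * M = M * e := by
    rw [he, Matrix.transpose_sum, Finset.sum_mul, Finset.mul_sum]
    refine Fintype.sum_equiv (Equiv.inv H) _ _ fun i => ?_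
    rw [Equiv.inv_apply, Matrix.transpose_smul, hθinv, Matrix.smul_mul, Matrix.mul_smul, hMA]
    simp
  -- the compressed representation
  obtain ⟨d, J, L, hLJ, hJL⟩ := idempotent_factor hidem
  have heJ : e * J = J := by rw [← hJL, Matrix.mul_assoc, hLJ, Matrix.mul_one]
  have hLe : L * e = L := by rw [← hJL, ← Matrix.mul_assoc, hLJ, Matrix.one_mul]
  let A' : H →* Matrix (Fin d) (Fin d) ℂ :=
    { toFun := fun a => L * A a * J
      map_one' := by simp [hLJ]
      map_mul' := fun a b => by
        calc L * A ((a * b : H) : G) * J = L * (A a * A b) * J := by rw [Subgroup.coe_mul, map_mul]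
          _ = L * (A a * A b) * (e * J) := by rw [heJ]
          _ = L * A a * (A b * e) * J := by simp only [Matrix.mul_assoc]
          _ = L * A a * (e * A b) * J := by rw [hcomm]
          _ = (L * A a * J) * (L * A b * J) := by rw [← hJL]; simp only [Matrix.mul_assoc] }
  have htr' : (fun a : H => (A' a).trace) = θ := funext fun a => by
    show (L * A a * J).trace = θ a
    rw [Matrix.trace_mul_cycle, hJL, Matrix.trace_mul_comm]
    exact htre a
  have hfr' : Module.finrank ℂ (invForms A') = 1 := by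
    have h := finrank_invForms A'
    rw [Finset.sum_congr rfl (fun g _ => by rw [congrFun htr' g] :
      ∀ g ∈ (Finset.univ : Finset H), _ = θ g * θ g), (avg_sq hθirr).1 hθr] at h
    exact_mod_cast h
  have hM' : Jᵀ * M * J ∈ invForms A' := by
    intro a
    show (L * A a * J)ᵀ * (Jᵀ * M * J) * (L * A a * J) = _
    calc (L * A a * J)ᵀ * (Jᵀ * M * J) * (L * A a * J)
        = Jᵀ * (A a)ᵀ * (eᵀ * M * (e * A a * J)) := by
          rw [← hJL]; simp only [Matrix.transpose_mul, Matrix.mul_assoc]
      _ = Jᵀ * ((A a)ᵀ * M * A a) * J := by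
          rw [heM, ← hcomm, Matrix.mul_assoc (A (a : G)), heJ, Matrix.mul_assoc M, ← Matrix.mul_assoc e,
            ← hcomm, Matrix.mul_assoc (A (a : G)), heJ]
          simp only [Matrix.mul_assoc]
      _ = _ := by rw [(mem_invForms.1 hM) a]
  have hM'0 : Jᵀ * M * J ≠ 0 := by
    intro h0
    have h2 : M * e = 0 := by
      calc M * e = M * (e * e) := by rw [hidem]
        _ = eᵀ * M * e := by rw [heM, Matrix.mul_assoc]
        _ = Lᵀ * (Jᵀ * M * J) * L := by rw [← hJL]; simp only [Matrix.transpose_mul, Matrix.mul_assoc]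
        _ = 0 := by rw [h0, Matrix.mul_zero, Matrix.zero_mul]
    have h3 : e = 0 := Matrix.ext fun i j => by
      have := congrFun (hinj (fun i => e i j) (funext fun i => congrFun (congrFun h2 i) j)) i
      simpa using this
    have := htre 1
    rw [h3, Matrix.mul_zero, Matrix.trace_zero] at this
    exact apply_one_ne_zero hθirr this.symm
  have hA := (transpose_eq_ind A hfr hM).1
  have hA' := (transpose_eq_ind A' hfr' hM').1
  rw [htr'] at hA'
  rw [trace_matHom] at hA
  rw [Matrix.transpose_mul, Matrix.transpose_mul, Matrix.transpose_transpose, hA, Matrix.smul_mul,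
    Matrix.mul_smul, ← Matrix.mul_assoc] at hA'
  exact smul_left_injective ℂ hM'0 hA'

end CfsgLib.CharBasics
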